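import Cfsg.Agent.H92.QS.Lift
import Cfsg.Agent.H194.Ore.RowThree
import Cfsg.Agent.OddHalf.NI.ExcEnd

/-!
# The row with a block of type `A₂` in a central extension of exponent 3 (helper92)

`row_cover` : `θ : E →* D.group K` with kernel central of exponent 3 and order prime to `p`, the table `Tab` of `H194.Ore`
and a lift of the block: every `g ∈ E` outside the kernel is a commutator.
-/

set_option autoImplicit false
set_option linter.unusedSectionVars false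

namespace Cfsg.Agent.H92.QS

open CoxeterSystem Cfsg.Agent.ChevalleyStructure.CoxeterGeom Cfsg.Agent.Tits.Roots Cfsg.Agent.Tits.Core
  Cfsg.Agent.Nodes.Reps Cfsg.Agent.Nodes.BNOf Cfsg.Agent.Nodes.RGDLib Cfsg.Agent.Nodes.Bruhat
  Cfsg.Agent.Nodes.OppDec Cfsg.Agent.Nodes.LeviDec Cfsg.Agent.Nodes.KindChev Cfsg.Agent.Nodes.ChevCls
  Cfsg.Agent.OddHalf.NI.ModelChev Cfsg.Agent.Nodes.StabComb Cfsg.Agent.Nodes.RGDLift
  Cfsg.Agent.H162.GaussDec Cfsg.Agent.H162.GaussLevi Cfsg.Agent.H162.GaussSL Cfsg.Agent.H162.GaussReg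
  Cfsg.Agent.H162.GaussPQ
  Cfsg.Agent.H928.Ore.Frame Cfsg.Agent.H928.Ore.Fix
open Cfsg.Lie Cfsg.Agent.ChevalleyStructure Cfsg.Agent.ChevalleyStructure.Elts
  Cfsg.Agent.ChevalleyStructure.RootVec Cfsg.Agent.ChevalleyStructure.NPerm
  Cfsg.Agent.ChevalleyStructure.CoxeterGeomTypes Cfsg.Agent.Nodes.RGDChev Cfsg.Agent.KFacts.RgdChevCoord
open Cfsg.Agent.TitsThree.KExcRT Cfsg.Agent.H335.Sr Cfsg.Agent.H129.TorusChar Cfsg.Agent.H777.Ore
open Cfsg.Agent.H162.GaussExc (sg sg_mem ch_sg act_sg wd fr fr_lt wd_act fr_vec wd_norm eq_of_ch prod_zpow coord)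
open Cfsg.Agent.H194.Ore

universe u v

/-! ### unitriangular matrices -/

theorem pow_eq_one_of_nil {K : Type*} [Field K] (p : ℕ) [Fact p.Prime] [CharP K p]
    {A : Matrix.SpecialLinearGroup (Fin 3) K} (hA : (A.1 - 1) ^ 3 = 0) : A ^ p ^ 2 = 1 := by
  apply Subtype.ext
  show ((A ^ p ^ 2 : Matrix.SpecialLinearGroup (Fin 3) K) : Matrix (Fin 3) (Fin 3) K) = 1
  rw [Matrix.SpecialLinearGroup.coe_pow]
  have h1 : (A : Matrix (Fin 3) (Fin 3) K) = (A.1 - 1) + 1 := by abel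
  have : CharP (Matrix (Fin 3) (Fin 3) K) p := inferInstance
  have : ExpChar (Matrix (Fin 3) (Fin 3) K) p := ExpChar.prime Fact.out
  rw [h1, add_pow_expChar_pow_of_commute p 2 (Commute.one_right _), one_pow]
  have h2 : 3 ≤ p ^ 2 := by
    have := (Fact.out : p.Prime).two_le
    nlinarith
  obtain ⟨k, hk⟩ := Nat.exists_eq_add_of_le h2
  rw [hk, pow_add, hA, zero_mul, zero_add]

theorem isPGroup_UT3 {K : Type*} [Field K] (p : ℕ) [Fact p.Prime] [CharP K p] : IsPGroup p ↥(UT 3 K) := by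
  rintro ⟨A, hA⟩
  refine ⟨2, Subtype.ext (pow_eq_one_of_nil p ?_)⟩
  obtain ⟨h1, h2⟩ := mem_UT.1 hA
  have e1 := h1 1 0 (by decide)
  have e2 := h1 2 0 (by decide)
  have e3 := h1 2 1 (by decide)
  have f0 := h2 0
  have f1 := h2 1
  have f2 := h2 2
  ext i j
  fin_cases i <;> fin_cases j <;>
    simp [pow_succ, Matrix.mul_apply, Fin.sum_univ_three, Matrix.sub_apply, e1, e2, e3, f0, f1, f2]

theorem isPGroup_LT3 {K : Type*} [Field K] (p : ℕ) [Fact p.Prime] [CharP K p] : IsPGroup p ↥(LT 3 K) := by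
  rintro ⟨A, hA⟩
  refine ⟨2, Subtype.ext (pow_eq_one_of_nil p ?_)⟩
  obtain ⟨h1, h2⟩ := mem_LT.1 hA
  have e1 := h1 0 1 (by decide)
  have e2 := h1 0 2 (by decide)
  have e3 := h1 1 2 (by decide)
  have f0 := h2 0
  have f1 := h2 1
  have f2 := h2 2
  ext i j
  fin_cases i <;> fin_cases j <;>
    simp [pow_succ, Matrix.mul_apply, Fin.sum_univ_three, Matrix.sub_apply, e1, e2, e3, f0, f1, f2]

/-- a unit which is not of order 1 or 2 -/
theorem exists_unit {K : Type u} [Field K] [Finite K] (hK : 4 ≤ Nat.card K) : ∃ t : Kˣ, t ≠ 1 ∧ t * t ≠ 1 := by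
  by_contra hcon
  push Not at hcon
  have h1 : ∀ x : K, x = 0 ∨ x = 1 ∨ x = -1 := by
    intro x
    by_cases hx : x = 0
    · exact .inl hx
    · right
      by_cases h1 : x = 1
      · exact .inl h1
      · right
        have h2 := hcon (Units.mk0 x hx) (fun h => h1 (by
          have := congrArg Units.val h
          simpa using this))
        have h3 : x * x = 1 := by
          have := congrArg Units.val h2
          simpa using this
        rcases mul_self_eq_one_iff.1 h3 with h4 | h4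
        · exact absurd h4 h1
        · exact h4
  classical
  have := Fintype.ofFinite K
  have h2 : (Finset.univ : Finset K) ⊆ {0, 1, -1} := by
    intro x _
    simp only [Finset.mem_insert, Finset.mem_singleton]
    exact h1 x
  have h3 := Finset.card_le_card h2
  rw [Finset.card_univ, ← Nat.card_eq_fintype_card] at h3
  have h4 : ({0, 1, -1} : Finset K).card ≤ 3 := Finset.card_le_three
  omega

theorem perf3 (K : Type*) [Field K] : commutator (Matrix.SpecialLinearGroup (Fin 3) K) = ⊤ :=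
  Cfsg.Agent.LieClassical.SLGen.commutator_eq_top (by simp)

section

variable {D : ChevalleyDatum} {l : ℕ} {M : CoxeterMatrix (Fin l)} (hp : IsType D l M) {K : Type u} [Field K] [Finite K]
  {J : List (Fin l)} {m : Fin l → ℤ} {γ : Fin l → Fin l} {ω ω₁ : List (Fin l)} {r : Fin 3 → Fin 3 → ℕ} {ε : ℤ}
  {i j : Fin l} (T : Tab D l J m γ ω ω₁ r ε i j) (t : Kˣ)
  {E : Type v} [Group E] [Finite E] {θ : E →* ↥(D.group K)} (hs : Function.Surjective θ)
  (hc : θ.ker ≤ Subgroup.center E) (h3 : ∀ z : E, θ z = 1 → z ^ 3 = 1)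
  {φ : Matrix.SpecialLinearGroup (Fin 3) K →* E}
  (hφ : ∀ a b (hab : a ≠ b) c, θ.comp φ (Matrix.SpecialLinearGroup.transvection hab c) =
    xc hp (vec D l (r a b)) ((ε : K) * c))

include T hs hc h3 hφ in
/-- an element inverting `φ X` and commuting with `s₀` -/
theorem exists_inv (p : ℕ) [Fact p.Prime] [CharP K p] (hε : ε * ε = 1) (hZ : Subgroup.center ↥(D.group K) = ⊥)
    {d : ℕ} {B : Fin l → Fin l → ℤ} (hB : InvC D l d B) (hd : Odd d) {s₀ : E} (hs₀ : θ s₀ = sg hp m t)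
    {X : Matrix.SpecialLinearGroup (Fin 3) K} (hx : Irreducible (X : Matrix (Fin 3) (Fin 3) K).charpoly) :
    ∃ v : E, v * s₀ * v⁻¹ = s₀ ∧ v * φ X * v⁻¹ = (φ X)⁻¹ := by
  have R := rgd (K := K) hp M.toCoxeterSystem p
  have hw : ∀ q < D.nroots, rep M.toCoxeterSystem hp.isCartan (M.toCoxeterSystem.wordProd ω) (vec D l q) =
      vec D l (fr D ω q) := fun q hq => (fr_vec hp M.toCoxeterSystem ω hq).symm
  obtain ⟨z, Z⟩ := exists_ZD (K := K) hp M.toCoxeterSystem R.nsys (w := M.toCoxeterSystem.wordProd ω) T.gg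
    (fun k => by
      have hk := simple_lt hp.inList (lt_rank hp k)
      rw [← vec_simple hp k, hw _ hk, T.wg, vec_neg hp (simple_lt hp.inList (lt_rank hp (γ k))), vec_simple hp])
    hB hd (fun _ => 1) (fun _ => .inl rfl) (fun _ => rfl)
  have hεK : (ε : K) * (ε : K) = 1 := by rw [← Int.cast_mul, hε, Int.cast_one]
  obtain ⟨e, he, hτ⟩ := Z.block (n := 1) (r := r) (s := fun _ _ => (ε : K)) T.ra T.rn
    (fun a b hab => by rw [hw _ (T.ra a b hab), T.wr a b hab, T.rn a b hab, vec_neg hp (T.ra a b hab)])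
    (fun _ _ _ => hεK) hφ
  have hsγ : ∀ k, ch hp (sr (γ k)) (sg hp m t) = ch hp (sr k) (sg hp m t) := fun k => by
    have h3 := simple_lt hp.inList (lt_rank hp k)
    have h4 := simple_lt hp.inList (lt_rank hp (γ k))
    rw [← vec_simple hp k, ← vec_simple hp (γ k), ch_sg hp m t h3, ch_sg hp m t h4, T.mg]
  have htor := Z.tor (sg_mem (K := K) hp m t) T.gg hsγ
  obtain ⟨z', hz', hz2⟩ := exists_sq h3 hs Z.sq
  have h1 : ∀ A, z' * φ A * z'⁻¹ = φ (tau e he A) := conj_lift (perf3 K) hc (fun A => by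
    rw [hz']
    exact hτ A)
  obtain ⟨H, hH, hXH, hdet⟩ := exists_symm X.1 hx (∏ a, e a)
  obtain ⟨S, g1, g2⟩ := exists_S he X hH hXH hdet
  obtain ⟨g3, g4⟩ := invol hz2 h1 g1 g2
  obtain ⟨w, hw'⟩ := hs (Cfsg.Agent.H162.GaussExc.wd hp K ω₁)
  have h2 : ∀ A, w * φ A = φ A * w := comm_phi (perf3 K) hc (fun A => by
    rw [hw']
    have h5 := T.wd_phi hp hφ A
    exact (mul_inv_eq_iff_eq_mul.1 h5))
  refine ⟨(w * (z' * φ S)) ^ 3, cube_comm hc h3 ?_, cube_inv ?_⟩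
  · have k1 : θ (z' * φ S) * sg hp m t * (θ (z' * φ S))⁻¹ = (sg hp m t)⁻¹ := by
      have k2 := T.comm hp t hφ S
      rw [map_mul, hz']
      calc z * θ (φ S) * sg hp m t * (z * θ (φ S))⁻¹ = z * (θ (φ S) * sg hp m t) * (θ (φ S))⁻¹ * z⁻¹ := by group
        _ = z * (sg hp m t * θ (φ S)) * (θ (φ S))⁻¹ * z⁻¹ := by
          have k3 : sg hp m t * θ (φ S) = θ (φ S) * sg hp m t := k2
          rw [k3]
        _ = z * sg hp m t * z⁻¹ := by group
        _ = _ := htor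
    have k4 := wd_sg (K := K) hp t p hZ T.wm
    rw [hs₀, map_mul, hw']
    calc Cfsg.Agent.H162.GaussExc.wd hp K ω₁ * θ (z' * φ S) * sg hp m t *
          (Cfsg.Agent.H162.GaussExc.wd hp K ω₁ * θ (z' * φ S))⁻¹
        = Cfsg.Agent.H162.GaussExc.wd hp K ω₁ * (θ (z' * φ S) * sg hp m t * (θ (z' * φ S))⁻¹) *
          (Cfsg.Agent.H162.GaussExc.wd hp K ω₁)⁻¹ := by group
      _ = (Cfsg.Agent.H162.GaussExc.wd hp K ω₁ * sg hp m t * (Cfsg.Agent.H162.GaussExc.wd hp K ω₁)⁻¹)⁻¹ := by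
        rw [k1]; group
      _ = sg hp m t := by rw [k4, inv_inv]
  · have k5 := h2 X
    calc w * (z' * φ S) * φ X * (w * (z' * φ S))⁻¹ = w * ((z' * φ S) * φ X * (z' * φ S)⁻¹) * w⁻¹ := by group
      _ = w * (φ X)⁻¹ * w⁻¹ := by rw [g4]
      _ = (w * φ X * w⁻¹)⁻¹ := by group
      _ = (φ X)⁻¹ := by rw [k5]; group

include T hs hc h3 hφ in
/-- **The pairs.** -/
theorem pairs (p : ℕ) [Fact p.Prime] [CharP K p] (hker : (Nat.card θ.ker).Coprime p) (hε : ε * ε = 1)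
    (hZ : Subgroup.center ↥(D.group K) = ⊥)
    {d : ℕ} {B : Fin l → Fin l → ℤ} (hB : InvC D l d B) (hd : Odd d) (hm3 : M3 K) (ht1 : t ≠ 1) (ht2 : t * t ≠ 1) :
    ∀ v ∈ lft p θ (UNJ M.toCoxeterSystem hp.isCartan (XX D l K) {k | k ∈ J}),
      ∀ u ∈ lft p θ (UJ M.toCoxeterSystem hp.isCartan (XX D l K) {k | k ∈ J}), ∃ c₁ c₂, v * u = c₁ * c₂ ∧
        LP M.toCoxeterSystem hp.isCartan (TT D K) (XX D l K) {k | k ∈ J} (θ c₁) (θ c₂) ∧
        ∃ y, c₂ = y * c₁⁻¹ * y⁻¹ := by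
  intro v hv u hu
  have := finite_W hp M.toCoxeterSystem
  have R := rgd (K := K) hp M.toCoxeterSystem p
  obtain ⟨L, hL, rfl⟩ := mem_map_lft hc hker (isPGroup_UNJ R {k | k ∈ J}) (isPGroup_LT3 (K := K) p)
    (T.lo hp hφ hε) hv
  obtain ⟨U, hU, rfl⟩ := mem_map_lft hc hker (isPGroup_UJ R {k | k ∈ J}) (isPGroup_UT3 (K := K) p)
    (T.up hp hφ hε) hu
  obtain ⟨X, Y, hXY, hX, hY, hcc⟩ := hm3 L hL U hU
  obtain ⟨s₀, hs₀⟩ := hs (sg hp m t)
  have hcom : ∀ A, s₀ * φ A = φ A * s₀ := comm_phi (perf3 K) hc (fun A => by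
    rw [hs₀]
    exact T.comm hp t hφ A)
  have hsT : sg hp m t ∈ LJ M.toCoxeterSystem hp.isCartan (TT D K) (XX D l K) {k | k ∈ J} := T_le_LJ (sg_mem hp m t)
  have hti : (sg hp m t)⁻¹ = sg hp m t⁻¹ := by
    refine inv_eq_of_mul_eq_one_right ?_
    unfold sg
    rw [← map_mul]
    convert map_one (th hp)
    funext k
    rw [Pi.mul_apply, inv_zpow, mul_inv_cancel]
    rfl
  have e1 : θ (s₀ * φ X) = sg hp m t * θ.comp φ X := by rw [map_mul, hs₀]; rfl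
  have e2 : θ (s₀⁻¹ * φ Y) = (sg hp m t)⁻¹ * θ.comp φ Y := by rw [map_mul, map_inv, hs₀]; rfl
  refine ⟨s₀ * φ X, s₀⁻¹ * φ Y, ?_, ?_, ?_⟩
  · calc φ L * φ U = φ (X * Y) := by rw [← map_mul, hXY]
      _ = φ X * φ Y := map_mul _ _ _
      _ = (φ X * s₀) * (s₀⁻¹ * φ Y) := by group
      _ = _ := by rw [← hcom]
  · rw [e1, e2]
    refine ⟨mul_mem hsT (T.range hp hφ X), mul_mem (inv_mem hsT) (T.range hp hφ Y),
      (T.nf hp t hφ hε ht1 ht2 hX).2, ?_⟩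
    rw [hti]
    exact (T.nf hp t⁻¹ hφ hε (by rwa [ne_eq, inv_eq_one]) (by
      rw [← mul_inv, ne_eq, inv_eq_one]
      exact ht2) hY).1
  · rcases hcc with hcc | hcc
    · obtain ⟨g, hg⟩ := Cfsg.Agent.H150.MF.exists_conj (Cfsg.Agent.H150.MF.cls_of_irreducible hX)
        (Cfsg.Agent.H150.MF.cls_of_irreducible hY) hcc.symm
      obtain ⟨w, hw1, hw2⟩ := exists_inv hp T t hs hc h3 hφ p hε hZ hB hd hs₀ hX
      refine ⟨φ g * w, ?_⟩
      have f1 : w * (s₀ * φ X)⁻¹ * w⁻¹ = φ X * s₀⁻¹ := by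
        calc w * (s₀ * φ X)⁻¹ * w⁻¹ = (w * φ X * w⁻¹)⁻¹ * (w * s₀ * w⁻¹)⁻¹ := by group
          _ = _ := by rw [hw1, hw2, inv_inv]
      have f2 : ∀ A, s₀⁻¹ * φ A = φ A * s₀⁻¹ := fun A => by
        calc s₀⁻¹ * φ A = s₀⁻¹ * (φ A * s₀) * s₀⁻¹ := by group
          _ = _ := by rw [← hcom]; group
      calc s₀⁻¹ * φ Y = s₀⁻¹ * (φ g * φ X * (φ g)⁻¹) := by rw [hg, map_mul, map_mul, map_inv]
        _ = (s₀⁻¹ * φ g) * φ X * (φ g)⁻¹ := by group
        _ = φ g * (s₀⁻¹ * φ X) * (φ g)⁻¹ := by rw [f2]; group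
        _ = φ g * (w * (s₀ * φ X)⁻¹ * w⁻¹) * (φ g)⁻¹ := by rw [f1, f2]
        _ = _ := by group
    · have hXi : Irreducible ((X⁻¹ : Matrix.SpecialLinearGroup (Fin 3) K) : Matrix (Fin 3) (Fin 3) K).charpoly := by
        rw [← hcc]
        exact hY
      obtain ⟨g, hg⟩ := Cfsg.Agent.H150.MF.exists_conj (Cfsg.Agent.H150.MF.cls_of_irreducible hXi)
        (Cfsg.Agent.H150.MF.cls_of_irreducible hY) hcc.symm
      refine ⟨φ g, ?_⟩
      have f2 : ∀ A, s₀⁻¹ * φ A = φ A * s₀⁻¹ := fun A => by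
        calc s₀⁻¹ * φ A = s₀⁻¹ * (φ A * s₀) * s₀⁻¹ := by group
          _ = _ := by rw [← hcom]; group
      calc s₀⁻¹ * φ Y = (s₀⁻¹ * φ g) * (φ X)⁻¹ * (φ g)⁻¹ := by
            rw [hg, map_mul, map_mul, map_inv, map_inv]; group
        _ = φ g * (s₀⁻¹ * (φ X)⁻¹) * (φ g)⁻¹ := by rw [f2]; group
        _ = φ g * (φ X * s₀)⁻¹ * (φ g)⁻¹ := by group
        _ = _ := by rw [← hcom]

include T hs hc h3 hφ in
/-- **The row in a cover.** -/
theorem row_cover (hK : 4 ≤ Nat.card K) (p : ℕ) [Fact p.Prime] [CharP K p] (hker : (Nat.card θ.ker).Coprime p)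
    (hE : commutator E = ⊤) (hε : ε * ε = 1) (hS : IsSimpleGroup ↥(D.group K) ∧ ¬ IsMulCommutative ↥(D.group K))
    (hM : ∀ J : Finset (Fin l), J = ∅ ∨ J = Finset.univ ∨ ∃ a ∈ J, ∃ b, b ∉ J ∧ M a b ≠ 2)
    {d : ℕ} {B : Fin l → Fin l → ℤ} (hB : InvC D l d B) (hd : Odd d) (hm3 : M3 K)
    {s' : ∀ _ : Fin l, Matrix.SpecialLinearGroup (Fin 2) K →* E} (hs' : ∀ i, θ.comp (s' i) = sl hp i) {g : E}
    (hg : θ g ≠ 1) : ∃ a b : E, g = a * b * a⁻¹ * b⁻¹ := by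
  have := finite_W hp M.toCoxeterSystem
  have := hS.1
  have : Nonempty (Fin l) := ⟨i⟩
  obtain ⟨t, ht1, ht2⟩ := exists_unit hK
  exact frame (rgd (K := K) hp M.toCoxeterSystem p) (G1_eq_top hp _) (Cfsg.Agent.OddHalf.NI.ExcEnd.coord hp) hs hc hker
    hE hs' (Cfsg.Agent.Nodes.ChevChart.irr_of hM) (J := {k | k ∈ J})
    (pairs hp T t hs hc h3 hφ p hker hε (Cfsg.Agent.Nodes.ChevChart.center_eq_bot hS) hB hd hm3 ht1 ht2) hg

end

end Cfsg.Agent.H92.QS
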