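import Cfsg.Agent.H92.QS.StHom
import Cfsg.Agent.H92.QS.Row
import Cfsg.Agent.H194.Ore.RowEF
import Cfsg.Agent.H584.Ore.ESix
import Cfsg.Agent.OddHalf.NI.ClosedSL
import Cfsg.Agent.H65.MultE
import Cfsg.Agent.H6.QO.Frame

/-!
# `RowA` for `E₆(q)` (S2491, piece C3; helper92)

The universal cover is Steinberg's group `chevE6.SteinbergGroup K`. The blocks of type `A₂` lift (`exists_hom_St`), the
row of `H194.Ore` is repeated in the cover (`row_cover`), and the centre consists of products of scalars of two commuting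
groups `SL₃`.
-/

set_option autoImplicit false
set_option linter.unusedSectionVars false

namespace Cfsg.Agent.H92.QS

open Cfsg.Lie Cfsg.Agent.ChevalleyStructure Cfsg.Agent.ChevalleyStructure.Elts Cfsg.Agent.Nodes.RGDChev
  Cfsg.Agent.KFacts.RgdChevCoord Cfsg.Agent.ChevalleyStructure.RootVec Cfsg.Agent.ChevalleyStructure.NPerm
  Cfsg.Agent.ChevalleyStructure.CoxeterGeomTypes
open Cfsg.Agent.TitsThree.KExcRT Cfsg.Agent.ChevalleyStructure.StBasic Cfsg.Agent.ChevalleyStructure.StTorus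
open Cfsg.Agent.OddHalf.NI.Mult Cfsg.Agent.OddHalf.NI.ModelChev Cfsg.Agent.Nodes.KindE
open Cfsg.Agent.H162.GaussExcMain (r6 rt6)
open Cfsg.Agent.H584.Ore.ESix (rA rB rtA o4)
open Cfsg.Agent.H584.Ore.Build (Orth comm_blocks sl_tv nd)
open Cfsg.Agent.H777.Ore (IsC AllC)
open Cfsg.Agent.H51.Mult (PCE)
open Cfsg.Agent.H6.QO (RowA)

universe u

/-! ### matrices -/

section Mat

variable {K : Type*} [Field K]

theorem dg_eq (t : Kˣ) : dg t = (up (t : K) * lo (-(t : K)⁻¹) * up (t : K)) *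
    (up (-1) * lo (-(-1 : K)⁻¹) * up (-1)) := by
  have ht : (t : K) ≠ 0 := t.ne_zero
  apply Subtype.ext
  simp only [Matrix.SpecialLinearGroup.coe_mul, coe_dg, coe_up, coe_lo, Matrix.mul_fin_two]
  ext i j
  fin_cases i <;> fin_cases j <;> simp [ht]

/-- the scalar matrix -/
def sc (w : K) (hw : w ^ 3 = 1) : Matrix.SpecialLinearGroup (Fin 3) K :=
  ⟨Matrix.diagonal fun _ => w, by rw [Matrix.det_diagonal]; simpa using hw⟩

/-- `diag(1, w, w²)` -/
def da (w : K) (hw : w ^ 3 = 1) : Matrix.SpecialLinearGroup (Fin 3) K :=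
  ⟨Matrix.diagonal ![1, w, w ^ 2], by
    rw [Matrix.det_diagonal, Fin.prod_univ_three]
    simp only [Matrix.cons_val_zero, Matrix.cons_val_one, Matrix.cons_val_two, Matrix.head_cons, Matrix.tail_cons]
    linear_combination hw⟩

/-- the cyclic permutation -/
def pb (K : Type*) [Field K] : Matrix.SpecialLinearGroup (Fin 3) K :=
  ⟨!![0, 0, 1; 1, 0, 0; 0, 1, 0], by simp [Matrix.det_fin_three]⟩

theorem sc_comm (w : K) (hw : w ^ 3 = 1) : sc w hw = da w hw * pb K * (da w hw)⁻¹ * (pb K)⁻¹ := by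
  rw [eq_mul_inv_iff_mul_eq, eq_mul_inv_iff_mul_eq]
  apply Subtype.ext
  show (Matrix.diagonal fun _ => w) * !![0, 0, 1; 1, 0, 0; 0, 1, 0] * Matrix.diagonal ![1, w, w ^ 2] =
    Matrix.diagonal ![1, w, w ^ 2] * !![0, 0, 1; 1, 0, 0; 0, 1, 0]
  ext i j
  rw [Matrix.mul_diagonal, Matrix.diagonal_mul, Matrix.diagonal_mul]
  fin_cases i <;> fin_cases j <;> simp
  · linear_combination hw
  · ring

end Mat

section St

variable {K : Type u} [Field K] {D : ChevalleyDatum} {l : ℕ} {M : CoxeterMatrix (Fin l)} (hp : IsType D l M)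

theorem theta_xc {r : ℕ} (hr : r < D.nroots) (c : K) :
    StTheta.theta hp.inList K (D.stGen K r c) = xc hp (vec D l r) c := by
  apply Subtype.ext
  rw [coe_xc hp hr, StTheta.coe_theta, StTheta.thetaGL_stGen]

/-- the torus elements of the presented group -/
theorem sth_eq_dg {f : Matrix.SpecialLinearGroup (Fin 2) K →* D.SteinbergGroup K} {r : ℕ}
    (h1 : ∀ c, f (up c) = D.stGen K r c) (h2 : ∀ c, f (lo c) = D.stGen K (D.neg r) c) (t : Kˣ) :
    sth D r (t : K) = f (dg t) := by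
  rw [dg_eq]
  simp only [map_mul, h1, h2]
  rw [sth_eq, ← stn_neg, stn_eq, stn_eq]

/-- the homomorphisms `SL₂ → SL₃ → St` -/
theorem emb_up_lo {r : Fin 3 → Fin 3 → ℕ} {s : Fin 3 → Fin 3 → ℤ}
    {φ : Matrix.SpecialLinearGroup (Fin 3) K →* D.SteinbergGroup K}
    (hφ : ∀ a b (hab : a ≠ b) c, φ (Matrix.SpecialLinearGroup.transvection hab c) = D.stGen K (r a b) ((s a b : K) * c))
    {a b : Fin 3} (hab : a ≠ b) {i : ℕ} (hi : r a b = D.simple i) (hn : r b a = D.neg (r a b)) (hs1 : s a b = 1)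
    (hs2 : s b a = 1) :
    (∀ c, φ (Cfsg.Agent.OddHalf.NI.ClosedSL.emb hab (up c)) = D.stGen K (D.simple i) c) ∧
      ∀ c, φ (Cfsg.Agent.OddHalf.NI.ClosedSL.emb hab (lo c)) = D.stGen K (D.neg (D.simple i)) c := by
  constructor
  · intro c
    rw [Cfsg.Agent.OddHalf.NI.ClosedSL.emb_up, Cfsg.Agent.TitsThree.KSideA.tv_of_ne hab, hφ, hi, hs1, Int.cast_one, one_mul]
  · intro c
    rw [Cfsg.Agent.OddHalf.NI.ClosedSL.emb_lo, Cfsg.Agent.TitsThree.KSideA.tv_of_ne hab.symm, hφ, hn, hi, hs2, Int.cast_one, one_mul]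

theorem comp_sl {f : Matrix.SpecialLinearGroup (Fin 2) K →* D.SteinbergGroup K} {i : Fin l}
    (h1 : ∀ c, f (up c) = D.stGen K (D.simple i) c) (h2 : ∀ c, f (lo c) = D.stGen K (D.neg (D.simple i)) c) :
    (StTheta.theta hp.inList K).comp f = sl hp i := by
  have hlt := simple_lt hp.inList (lt_rank hp i)
  refine Cfsg.Agent.H162.GaussReg.hom_ext fun a b hab c => ?_
  rw [sl_tv, one_mul, MonoidHom.comp_apply]
  fin_cases a <;> fin_cases b
  · exact absurd rfl hab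
  · have e : Matrix.SpecialLinearGroup.transvection hab c = (up c : Matrix.SpecialLinearGroup (Fin 2) K) :=
      Cfsg.Agent.H584.Ore.Build.tv_uu c
    rw [e, h1, theta_xc hp hlt]
    rfl
  · have e : Matrix.SpecialLinearGroup.transvection hab c = (lo c : Matrix.SpecialLinearGroup (Fin 2) K) :=
      Cfsg.Agent.H584.Ore.Build.tv_vv c
    rw [e, h2, theta_xc hp (neg_lt hp.inList hlt)]
    rfl
  · exact absurd rfl hab

end St

/-! ### the tables -/

/-- the signs of the block of the nodes `4`, `5` -/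
def sB : Fin 3 → Fin 3 → ℤ := ![![1, 1, -1], ![1, 1, 1], ![-1, 1, 1]]

theorem rtB' : RTa chevE6 rB ∧ RTb chevE6 rB sB ∧ RTc chevE6 rB ∧ RTd sB ∧ (∀ a b, a ≠ b → sB b a = sB a b) ∧
    ∀ i j, i ≠ j → rB j i = chevE6.neg (rB i j) := by decide +kernel

theorem spl : r6 0 1 = chevE6.simple 3 ∧ r6 1 2 = chevE6.simple 1 ∧ rA 0 1 = chevE6.simple 2 ∧
    rA 1 2 = chevE6.simple 0 ∧ rB 0 1 = chevE6.simple 4 ∧ rB 1 2 = chevE6.simple 5 := by decide +kernel

/-! ### the centre -/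

section Center

variable {K : Type u} [Field K]

theorem center_aux (Φ : (Fin 6 → Kˣ) →* chevE6.SteinbergGroup K)
    (hΦ : ∀ (i : Fin 6) (x : Kˣ), Φ (Pi.mulSingle i x) = sth chevE6 (chevE6.simple i) (x : K)) (t : Fin 6 → Kˣ)
    (ht : ∀ s < chevE6.nroots, ∏ i : Fin 6, t i ^ chevE6.cartan i s = 1) :
    ∃ w : Kˣ, w ^ 3 = 1 ∧ Φ t = sth chevE6 (chevE6.simple 0) (w : K) *
      sth chevE6 (chevE6.simple 2) ((w ^ 2 : Kˣ) : K) *
      (sth chevE6 (chevE6.simple 4) (w : K) * sth chevE6 (chevE6.simple 5) ((w ^ 2 : Kˣ) : K)) := by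
  have hlt : ∀ j : Fin 6, chevE6.simple j < chevE6.nroots := by decide +kernel
  have h : ∀ j : Fin 6, ∏ i : Fin 6, t i ^ chevE6.cartan i (chevE6.simple j) = 1 := fun j => ht _ (hlt j)
  have key := fun (b e : Fin 6 → ℤ) (hb : ∀ i : Fin 6, ∑ j : Fin 6, chevE6.cartan i (chevE6.simple j) * b j = e i) =>
    eval_eq_one (fun i j : Fin 6 => chevE6.cartan i (chevE6.simple j)) b e hb t h
  have k0 := key ![4, 3, 5, 6, 4, 2] ![3, 0, 0, 0, 0, 0] (by decide +kernel)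
  have k1 := key ![1, 2, 2, 3, 2, 1] ![0, 1, 0, 0, 0, 0] (by decide +kernel)
  have k2 := key ![-1, 0, 0, 0, 0, 0] ![-2, 0, 1, 0, 0, 0] (by decide +kernel)
  have k3 := key ![2, 3, 4, 6, 4, 2] ![0, 0, 0, 1, 0, 0] (by decide +kernel)
  have k4 := key ![0, 1, 1, 2, 2, 1] ![-1, 0, 0, 0, 1, 0] (by decide +kernel)
  have k5 := key ![-2, -1, -2, -2, -1, 0] ![-2, 0, 0, 0, 0, 1] (by decide +kernel)
  rw [Fin.prod_univ_six] at k0 k1 k2 k3 k4 k5
  obtain ⟨w, hw⟩ : ∃ w : Kˣ, w = t 0 := ⟨_, rfl⟩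
  have e0 : w ^ 3 = 1 := by
    rw [hw]; simpa using k0
  have e1 : t 1 = 1 := by simpa using k1
  have e2 : t 2 = w ^ 2 := by
    rw [hw]
    have : (t 0) ^ (-2 : ℤ) * t 2 = 1 := by simpa using k2
    rw [zpow_neg, inv_mul_eq_one] at this
    rw [← this]; rfl
  have e3 : t 3 = 1 := by simpa using k3
  have e4 : t 4 = w := by
    rw [hw]
    have : (t 0) ^ (-1 : ℤ) * t 4 = 1 := by simpa using k4
    rw [zpow_neg, inv_mul_eq_one] at this
    rw [← this, zpow_one]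
  have e5 : t 5 = w ^ 2 := by
    rw [hw]
    have : (t 0) ^ (-2 : ℤ) * t 5 = 1 := by simpa using k5
    rw [zpow_neg, inv_mul_eq_one] at this
    rw [← this]; rfl
  refine ⟨w, e0, ?_⟩
  have et : t = Pi.mulSingle 0 w * Pi.mulSingle 2 (w ^ 2) * (Pi.mulSingle 4 w * Pi.mulSingle 5 (w ^ 2)) := by
    funext i
    fin_cases i
    · simp [hw]
    · simp [e1]
    · simp [e2]
    · simp [e3]
    · simp [e4]
    · simp [e5]
  rw [et, map_mul, map_mul, map_mul, hΦ, hΦ, hΦ, hΦ]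
  rfl

theorem center_form {g : chevE6.SteinbergGroup K} (hg : g ∈ Subgroup.center (chevE6.SteinbergGroup K)) :
    ∃ w : Kˣ, w ^ 3 = 1 ∧ g = sth chevE6 (chevE6.simple 0) (w : K) * sth chevE6 (chevE6.simple 2) ((w ^ 2 : Kˣ) : K) *
      (sth chevE6 (chevE6.simple 4) (w : K) * sth chevE6 (chevE6.simple 5) ((w ^ 2 : Kˣ) : K)) := by
  obtain ⟨Φ, hΦ, hle, hiff⟩ := StCenter.exists_Phi K chevE6 (by simp)
  obtain ⟨t, rfl⟩ := hle hg
  exact center_aux Φ hΦ t ((hiff t).1 hg)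

theorem emb_sc_two (w : Kˣ) (hw : w ^ 3 = 1) (hw' : ((w ^ 2 : Kˣ) : K) ^ 3 = 1) :
    Cfsg.Agent.OddHalf.NI.ClosedSL.emb (by decide : (1 : Fin 3) ≠ 2) (dg w) *
      Cfsg.Agent.OddHalf.NI.ClosedSL.emb (by decide : (0 : Fin 3) ≠ 1) (dg (w ^ 2)) = sc ((w ^ 2 : Kˣ) : K) hw' := by
  have h1 : w⁻¹ = w ^ 2 := inv_eq_of_mul_eq_one_right (by rw [← pow_succ', hw])
  have h2 : (w ^ 2)⁻¹ = w := inv_eq_of_mul_eq_one_right (by rw [← pow_succ, hw])
  apply Subtype.ext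
  rw [Matrix.SpecialLinearGroup.coe_mul, Cfsg.Agent.OddHalf.NI.ClosedSL.emb_dg,
    Cfsg.Agent.OddHalf.NI.ClosedSL.emb_dg, Matrix.diagonal_mul_diagonal, h1, h2]
  show Matrix.diagonal _ = Matrix.diagonal fun _ => ((w ^ 2 : Kˣ) : K)
  congr 1
  funext c
  fin_cases c <;> simp [pow_two]

theorem emb_sc_one (w : Kˣ) (hw : w ^ 3 = 1) (hw' : (w : K) ^ 3 = 1) :
    Cfsg.Agent.OddHalf.NI.ClosedSL.emb (by decide : (0 : Fin 3) ≠ 1) (dg w) *
      Cfsg.Agent.OddHalf.NI.ClosedSL.emb (by decide : (1 : Fin 3) ≠ 2) (dg (w ^ 2)) = sc (w : K) hw' := by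
  have h1 : w⁻¹ = w ^ 2 := inv_eq_of_mul_eq_one_right (by rw [← pow_succ', hw])
  have h2 : (w ^ 2)⁻¹ = w := inv_eq_of_mul_eq_one_right (by rw [← pow_succ, hw])
  have h3 : (w : K) ^ 2 * (w : K) ^ 2 = (w : K) := by
    linear_combination (w : K) * hw'
  apply Subtype.ext
  rw [Matrix.SpecialLinearGroup.coe_mul, Cfsg.Agent.OddHalf.NI.ClosedSL.emb_dg,
    Cfsg.Agent.OddHalf.NI.ClosedSL.emb_dg, Matrix.diagonal_mul_diagonal, h1, h2]
  show Matrix.diagonal _ = Matrix.diagonal fun _ => (w : K)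
  congr 1
  funext c
  fin_cases c <;> simp [h3]

end Center

/-! ### the row -/

/-- **Every element of Steinberg's group of type `E₆` is a commutator.** -/
theorem allC_St6 {K : Type u} [Field K] [Finite K] (hK : 4 ≤ Nat.card K) : AllC (chevE6.SteinbergGroup K) := by
  have := Fintype.ofFinite K
  have hcard := Cfsg.Agent.S1079.result (K := K) (q := Fintype.card K) rfl (chevE6, 3) (by simp)
  have hk := Cfsg.Agent.H65.MultE.ker_theta (K := K) isType6.inList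
  have hfin : Finite (chevE6.SteinbergGroup K) := Cfsg.Agent.H65.MultE.finite_St isType6.inList (by
    rw [hcard]
    exact (Nat.gcd_pos_of_pos_left _ (by norm_num)).ne')
  obtain ⟨p, hpc⟩ := CharP.exists K
  have hpf : Fact p.Prime := ⟨(CharP.char_is_prime_or_zero K p).resolve_right (CharP.char_ne_zero_of_finite K p)⟩
  have hcd : Nat.card (StTheta.theta isType6.inList K).ker = Nat.gcd 3 (Fintype.card K - 1) := by
    rw [hk]; exact hcard
  have hcop : (Nat.card (StTheta.theta isType6.inList K).ker).Coprime p := by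
    rw [hcd]
    refine Nat.Coprime.coprime_dvd_left (Nat.gcd_dvd_right _ _) ?_
    rw [Nat.coprime_comm, hpf.out.coprime_iff_not_dvd]
    intro h1
    obtain ⟨n, -, hn⟩ := FiniteField.card K p
    have h2 : p ∣ Fintype.card K := by
      rw [hn]; exact dvd_pow_self p n.2.ne'
    have h4 : 1 ≤ Fintype.card K := Fintype.card_pos
    have h3 : p ∣ 1 := by
      have h5 := Nat.dvd_sub h2 h1
      rwa [Nat.sub_sub_self h4] at h5
    exact hpf.out.one_lt.ne' (Nat.dvd_one.1 h3)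
  have h3 : ∀ z : chevE6.SteinbergGroup K, StTheta.theta isType6.inList K z = 1 → z ^ 3 = 1 := by
    intro z hz
    have h1 : (⟨z, hz⟩ : (StTheta.theta isType6.inList K).ker) ^ Nat.card (StTheta.theta isType6.inList K).ker = 1 :=
      pow_card_eq_one'
    rw [hcd] at h1
    obtain ⟨e, he⟩ := Nat.gcd_dvd_left 3 (Fintype.card K - 1)
    have h2 : z ^ Nat.gcd 3 (Fintype.card K - 1) = 1 := by simpa using congrArg Subtype.val h1
    calc z ^ 3 = z ^ (Nat.gcd 3 (Fintype.card K - 1) * e) := by rw [← he]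
      _ = 1 := by rw [pow_mul, h2, one_pow]
  have hs := StTheta.theta_surjective (K := K) isType6.inList
  -- the blocks
  obtain ⟨φ₀, hφ₀⟩ := exists_hom_St (K := K) (n := 0) (D := chevE6) (r := r6) (s := fun _ _ => 1) rt6.1 rt6.2.1 rt6.2.2.1
    (fun _ _ => rfl) (fun _ _ _ => rfl) rt6.2.2.2
  obtain ⟨φA, hφA⟩ := exists_hom_St (K := K) (n := 0) (D := chevE6) (r := rA) (s := fun _ _ => 1) rtA.1 rtA.2.1 rtA.2.2.1
    (fun _ _ => rfl) (fun _ _ _ => rfl) rtA.2.2.2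
  obtain ⟨φB, hφB⟩ := exists_hom_St (K := K) (n := 0) (D := chevE6) (r := rB) (s := sB) rtB'.1 rtB'.2.1 rtB'.2.2.1
    rtB'.2.2.2.1 rtB'.2.2.2.2.1 rtB'.2.2.2.2.2
  have q0 := emb_up_lo hφ₀ (by decide : (0 : Fin 3) ≠ 1) spl.1 (rt6.2.2.2 0 1 (by decide)) rfl rfl
  have q1 := emb_up_lo hφ₀ (by decide : (1 : Fin 3) ≠ 2) spl.2.1 (rt6.2.2.2 1 2 (by decide)) rfl rfl
  have q2 := emb_up_lo hφA (by decide : (0 : Fin 3) ≠ 1) spl.2.2.1 (rtA.2.2.2 0 1 (by decide)) rfl rfl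
  have q3 := emb_up_lo hφA (by decide : (1 : Fin 3) ≠ 2) spl.2.2.2.1 (rtA.2.2.2 1 2 (by decide)) rfl rfl
  have q4 := emb_up_lo hφB (by decide : (0 : Fin 3) ≠ 1) spl.2.2.2.2.1 (rtB'.2.2.2.2.2 0 1 (by decide)) rfl rfl
  have q5 := emb_up_lo hφB (by decide : (1 : Fin 3) ≠ 2) spl.2.2.2.2.2 (rtB'.2.2.2.2.2 1 2 (by decide)) rfl rfl
  have hex : ∀ i : Fin 6, ∃ f : Matrix.SpecialLinearGroup (Fin 2) K →* chevE6.SteinbergGroup K,
      (∀ c, f (up c) = chevE6.stGen K (chevE6.simple i) c) ∧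
        ∀ c, f (lo c) = chevE6.stGen K (chevE6.neg (chevE6.simple i)) c := by
    intro i
    fin_cases i
    · exact ⟨φA.comp (Cfsg.Agent.OddHalf.NI.ClosedSL.emb (by decide : (1 : Fin 3) ≠ 2)), q3⟩
    · exact ⟨φ₀.comp (Cfsg.Agent.OddHalf.NI.ClosedSL.emb (by decide : (1 : Fin 3) ≠ 2)), q1⟩
    · exact ⟨φA.comp (Cfsg.Agent.OddHalf.NI.ClosedSL.emb (by decide : (0 : Fin 3) ≠ 1)), q2⟩
    · exact ⟨φ₀.comp (Cfsg.Agent.OddHalf.NI.ClosedSL.emb (by decide : (0 : Fin 3) ≠ 1)), q0⟩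
    · exact ⟨φB.comp (Cfsg.Agent.OddHalf.NI.ClosedSL.emb (by decide : (0 : Fin 3) ≠ 1)), q4⟩
    · exact ⟨φB.comp (Cfsg.Agent.OddHalf.NI.ClosedSL.emb (by decide : (1 : Fin 3) ≠ 2)), q5⟩
  choose s' hs1 hs2 using hex
  have cvt : ∀ {r : Fin 3 → Fin 3 → ℕ} {s : Fin 3 → Fin 3 → ℤ}
      {φ : Matrix.SpecialLinearGroup (Fin 3) K →* chevE6.SteinbergGroup K}, RTa chevE6 r →
      (∀ a b (hab : a ≠ b) c, φ (Matrix.SpecialLinearGroup.transvection hab c) =
        chevE6.stGen K (r a b) ((s a b : K) * c)) →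
      ∀ a b (hab : a ≠ b) c, (StTheta.theta isType6.inList K).comp φ (Matrix.SpecialLinearGroup.transvection hab c) =
        xc isType6 (vec chevE6 6 (r a b)) ((s a b : K) * c) := by
    intro r s φ ha hφ a b hab c
    rw [MonoidHom.comp_apply, hφ, theta_xc isType6 (ha a b hab)]
  intro g
  by_cases hg : StTheta.theta isType6.inList K g = 1
  · -- the centre
    have hgc : g ∈ Subgroup.center (chevE6.SteinbergGroup K) := hk.le hg
    obtain ⟨w, hw, rfl⟩ := center_form hgc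
    have hwK : (w : K) ^ 3 = 1 := by
      rw [← Units.val_pow_eq_pow_val, hw, Units.val_one]
    have hwK2 : ((w ^ 2 : Kˣ) : K) ^ 3 = 1 := by
      rw [Units.val_pow_eq_pow_val, ← pow_mul, mul_comm, pow_mul, hwK, one_pow]
    have a0 := sth_eq_dg (D := chevE6) (f := φA.comp (Cfsg.Agent.OddHalf.NI.ClosedSL.emb (by decide : (1 : Fin 3) ≠ 2)))
      q3.1 q3.2 w
    have a2 := sth_eq_dg (D := chevE6) (f := φA.comp (Cfsg.Agent.OddHalf.NI.ClosedSL.emb (by decide : (0 : Fin 3) ≠ 1)))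
      q2.1 q2.2 (w ^ 2)
    have a4 := sth_eq_dg (D := chevE6) (f := φB.comp (Cfsg.Agent.OddHalf.NI.ClosedSL.emb (by decide : (0 : Fin 3) ≠ 1)))
      q4.1 q4.2 w
    have a5 := sth_eq_dg (D := chevE6) (f := φB.comp (Cfsg.Agent.OddHalf.NI.ClosedSL.emb (by decide : (1 : Fin 3) ≠ 2)))
      q5.1 q5.2 (w ^ 2)
    have b1 : sth chevE6 (chevE6.simple 0) (w : K) * sth chevE6 (chevE6.simple 2) ((w ^ 2 : Kˣ) : K) =
        φA (sc ((w ^ 2 : Kˣ) : K) hwK2) := by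
      rw [a0, a2, MonoidHom.comp_apply, MonoidHom.comp_apply, ← map_mul, emb_sc_two w hw hwK2]
    have b2 : sth chevE6 (chevE6.simple 4) (w : K) * sth chevE6 (chevE6.simple 5) ((w ^ 2 : Kˣ) : K) =
        φB (sc (w : K) hwK) := by
      rw [a4, a5, MonoidHom.comp_apply, MonoidHom.comp_apply, ← map_mul, emb_sc_one w hw hwK]
    have hcom : ∀ x y, Commute (φA x) (φB y) := comm_phi2 (perf3 K) hk.le fun x y =>
      (comm_blocks isType6 rtA.1 rtB'.1 o4 (cvt rtA.1 hφA) (cvt rtB'.1 hφB) x y).eq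
    rw [b1, b2, sc_comm, sc_comm (w : K)]
    simp only [map_mul, map_inv]
    obtain ⟨a, ha⟩ : ∃ a, a = φA (da ((w ^ 2 : Kˣ) : K) hwK2) := ⟨_, rfl⟩
    obtain ⟨b, hb⟩ : ∃ b, b = φA (pb K) := ⟨_, rfl⟩
    obtain ⟨c, hc⟩ : ∃ c, c = φB (da (w : K) hwK) := ⟨_, rfl⟩
    obtain ⟨d, hd⟩ : ∃ d, d = φB (pb K) := ⟨_, rfl⟩
    have hac : Commute a c := by rw [ha, hc]; exact hcom _ _
    have had : Commute a d := by rw [ha, hd]; exact hcom _ _
    have hbc : Commute b c := by rw [hb, hc]; exact hcom _ _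
    have hbd : Commute b d := by rw [hb, hd]; exact hcom _ _
    rw [← ha, ← hb, ← hc, ← hd]
    refine ⟨a * c, b * d, ?_⟩
    have f1 : c * b = b * c := hbc.eq.symm
    have f2 : c * a⁻¹ = a⁻¹ * c := (hac.inv_left).eq.symm
    have f3 : d * a⁻¹ = a⁻¹ * d := (had.inv_left).eq.symm
    have f4 : (c * d * c⁻¹) * b⁻¹ = b⁻¹ * (c * d * c⁻¹) :=
      (((hbc.inv_left).mul_right (hbd.inv_left)).mul_right (hbc.inv_left).inv_right).eq.symm
    calc a * b * a⁻¹ * b⁻¹ * (c * d * c⁻¹ * d⁻¹) = a * b * a⁻¹ * (b⁻¹ * (c * d * c⁻¹)) * d⁻¹ := by group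
      _ = a * b * a⁻¹ * ((c * d * c⁻¹) * b⁻¹) * d⁻¹ := by rw [f4]
      _ = a * b * (a⁻¹ * c) * d * c⁻¹ * b⁻¹ * d⁻¹ := by group
      _ = a * b * c * (a⁻¹ * d) * c⁻¹ * b⁻¹ * d⁻¹ := by rw [← f2]; group
      _ = a * (b * c) * d * a⁻¹ * c⁻¹ * b⁻¹ * d⁻¹ := by rw [← f3]; group
      _ = a * c * b * d * (a⁻¹ * c⁻¹) * (b⁻¹ * d⁻¹) := by rw [← f1]; group
      _ = a * c * b * d * (c⁻¹ * a⁻¹) * (d⁻¹ * b⁻¹) := by
        rw [((hac.inv_left).inv_right).eq, ((hbd.inv_left).inv_right).eq]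
      _ = _ := by group
  · exact row_cover isType6 Cfsg.Agent.H194.Ore.tab6 hs hk.le h3 (φ := φ₀) (cvt rt6.1 hφ₀) hK p hcop
      (Cfsg.Agent.H65.UnivE.typE6.perfect K) (by norm_num) (Cfsg.Agent.S1054.result chevE6 (by simp))
      Cfsg.Agent.Nodes.ChevChart.irr6 Cfsg.Agent.H129.TorusChar.invC_E6 (by decide)
      (Cfsg.Agent.H194.Ore.m3_of_four hK) (s' := s') (fun i => comp_sl isType6 (hs1 i) (hs2 i)) hg

/-- **`RowA` for `E₆(q)`, `q ≥ 4`** (C3; it includes all `q ≡ 1 mod 3`). -/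
theorem rowA_E6 {K : Type u} [Field K] [Finite K] (hK : 4 ≤ Nat.card K) : RowA ↥(chevE6.group K) := by
  have := Fintype.ofFinite K
  exact RowA.of_trivial (σ := StTheta.theta isType6.inList K)
    ⟨StTheta.theta_surjective isType6.inList, (Cfsg.Agent.H65.MultE.ker_theta isType6.inList).le,
      Cfsg.Agent.H65.UnivE.typE6.perfect K⟩ (Cfsg.Agent.H65.MultE.multE6 K rfl).2 (allC_St6 hK)

end Cfsg.Agent.H92.QS
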