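import Cfsg.Agent.OddHalf.NI.Mult
import Cfsg.Agent.H928.Ore.Frame
import Cfsg.Agent.KFacts.RgdAut

/-!
# Central extensions of groups with a root group datum: tools for commutators (helper92)

`θ : E →* Y` surjective with central kernel of order prime to `p`.

* `hom_unique`, `conj_lift`, `comm_phi` : homomorphisms from a perfect group into `E` are determined by their images in `Y`;
* `exists_sq` : involutions lift if the kernel has exponent 3;
* `sup_lft`, `nf_lft`, `lj_lft`, `lp_lft` : the subgroups of the lifted root group datum;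
* `mem_map_lft` : elements of `U_J` as images of unitriangular matrices;
* `frame` : the frame for commutators outside the kernel.
-/

set_option autoImplicit false
set_option linter.unusedSectionVars false

namespace Cfsg.Agent.H92.QS

open CoxeterSystem Cfsg.Agent.ChevalleyStructure.CoxeterGeom Cfsg.Agent.Tits.Roots Cfsg.Agent.Tits.Core
  Cfsg.Agent.Nodes.Reps Cfsg.Agent.Nodes.BNOf Cfsg.Agent.Nodes.StabComb
  Cfsg.Agent.Nodes.RGDLib Cfsg.Agent.Nodes.Bruhat Cfsg.Agent.Nodes.OppDec Cfsg.Agent.Nodes.LeviDec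
  Cfsg.Agent.Nodes.RGDLift Cfsg.Agent.OddHalf.NI.Mult Cfsg.Agent.H162.GaussDec Cfsg.Agent.H162.GaussLevi
  Cfsg.Agent.H928.Ore.Frame
open scoped commutatorElement

section Hom

variable {S S' E Y : Type*} [Group S] [Group S'] [Group E] [Group Y] {θ : E →* Y}

theorem comm_central {A B ζ ξ : E} (hζ : ∀ x, x * ζ = ζ * x) (hξ : ∀ x, x * ξ = ξ * x) :
    (ζ * A) * (ξ * B) * (ζ * A)⁻¹ * (ξ * B)⁻¹ = A * B * A⁻¹ * B⁻¹ := by
  calc (ζ * A) * (ξ * B) * (ζ * A)⁻¹ * (ξ * B)⁻¹ = ζ * (A * ξ) * B * A⁻¹ * ζ⁻¹ * B⁻¹ * ξ⁻¹ := by group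
    _ = (ζ * ξ) * (A * B * A⁻¹) * ζ⁻¹ * B⁻¹ * ξ⁻¹ := by rw [hξ]; group
    _ = (ξ * ζ) * (A * B * A⁻¹) * ζ⁻¹ * B⁻¹ * ξ⁻¹ := by rw [hξ]
    _ = ξ * (ζ * (A * B * A⁻¹)) * ζ⁻¹ * B⁻¹ * ξ⁻¹ := by group
    _ = ξ * (A * B * A⁻¹ * B⁻¹) * ξ⁻¹ := by rw [← hζ]; group
    _ = A * B * A⁻¹ * B⁻¹ := by rw [← hξ]; group

/-- homomorphisms from a perfect group are determined modulo the kernel -/
theorem hom_unique (hS : commutator S = ⊤) (hc : θ.ker ≤ Subgroup.center E) {f g : S →* E}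
    (h : ∀ x, θ (f x) = θ (g x)) : f = g := by
  have hz : ∀ x, f x * (g x)⁻¹ ∈ Subgroup.center E := fun x => hc (by
    rw [MonoidHom.mem_ker, map_mul, map_inv, h, mul_inv_cancel])
  have h1 : commutator S ≤ f.eqLocus g := by
    rw [commutator_def, Subgroup.commutator_le]
    intro a _ b _
    show f ⁅a, b⁆ = g ⁅a, b⁆
    obtain ⟨ζ, hζ⟩ : ∃ ζ, ζ = f a * (g a)⁻¹ := ⟨_, rfl⟩
    obtain ⟨ξ, hξ⟩ : ∃ ξ, ξ = f b * (g b)⁻¹ := ⟨_, rfl⟩
    have e1 : f a = ζ * g a := by rw [hζ]; group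
    have e2 : f b = ξ * g b := by rw [hξ]; group
    have h2 : ∀ x, x * ζ = ζ * x := Subgroup.mem_center_iff.1 (hζ ▸ hz a)
    have h3 : ∀ x, x * ξ = ξ * x := Subgroup.mem_center_iff.1 (hξ ▸ hz b)
    rw [map_commutatorElement, map_commutatorElement, commutatorElement_def, commutatorElement_def, e1, e2]
    exact comm_central h2 h3
  refine MonoidHom.ext fun x => ?_
  have h2 : x ∈ f.eqLocus g := h1 (by rw [hS]; exact Subgroup.mem_top x)
  exact h2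

/-- an automorphism of the image lifts -/
theorem conj_lift (hS : commutator S = ⊤) (hc : θ.ker ≤ Subgroup.center E) {φ : S →* E} {τ : S →* S} {y : E}
    (h : ∀ A, θ y * θ (φ A) * (θ y)⁻¹ = θ (φ (τ A))) (A : S) : y * φ A * y⁻¹ = φ (τ A) := by
  have h1 : (MulAut.conj y).toMonoidHom.comp φ = φ.comp τ := hom_unique hS hc fun x => by
    show θ (y * φ x * y⁻¹) = θ (φ (τ x))
    rw [map_mul, map_mul, map_inv, h]
  exact DFunLike.congr_fun h1 A

theorem comm_phi (hS : commutator S = ⊤) (hc : θ.ker ≤ Subgroup.center E) {φ : S →* E} {y : E}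
    (h : ∀ A, θ y * θ (φ A) = θ (φ A) * θ y) (A : S) : y * φ A = φ A * y := by
  have h1 := conj_lift hS hc (φ := φ) (τ := MonoidHom.id S) (y := y) (fun A => by
    rw [h]; show _ = θ (φ A); group) A
  have h2 : y * φ A * y⁻¹ = φ A := h1
  calc y * φ A = (y * φ A * y⁻¹) * y := by group
    _ = φ A * y := by rw [h2]

theorem comm_phi2 (hS : commutator S = ⊤) (hc : θ.ker ≤ Subgroup.center E) {φ : S →* E} {ψ : S' →* E}
    (h : ∀ A B, θ (φ A) * θ (ψ B) = θ (ψ B) * θ (φ A)) (A : S) (B : S') : Commute (φ A) (ψ B) :=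
  (comm_phi hS hc (φ := φ) (y := ψ B) (fun A => (h A B).symm) A).symm

/-- involutions lift -/
theorem exists_sq (h3 : ∀ z : E, θ z = 1 → z ^ 3 = 1) (hs : Function.Surjective θ) {z : Y} (hz : z * z = 1) :
    ∃ z' : E, θ z' = z ∧ z' * z' = 1 := by
  obtain ⟨x, rfl⟩ := hs z
  have h1 : (x * x) ^ 3 = 1 := h3 _ (by rw [map_mul, hz])
  refine ⟨x ^ 3, ?_, ?_⟩
  · rw [map_pow]
    calc θ x ^ 3 = (θ x * θ x) * θ x := by rw [pow_succ, pow_two]
      _ = θ x := by rw [hz, one_mul]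
  · rw [← h1]
    simp only [pow_succ, pow_zero, one_mul, mul_assoc]

/-- a power of an element commuting modulo the kernel -/
theorem cube_comm (hc : θ.ker ≤ Subgroup.center E) (h3 : ∀ z : E, θ z = 1 → z ^ 3 = 1) {v s : E}
    (h : θ v * θ s * (θ v)⁻¹ = θ s) : v ^ 3 * s * (v ^ 3)⁻¹ = s := by
  obtain ⟨ζ, hζ⟩ : ∃ ζ, ζ = v * s * v⁻¹ * s⁻¹ := ⟨_, rfl⟩
  have h1 : θ ζ = 1 := by
    rw [hζ, map_mul, map_mul, map_mul, map_inv, map_inv, h, mul_inv_cancel]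
  have h2 := h3 ζ h1
  have h4 : ∀ x, x * ζ = ζ * x := Subgroup.mem_center_iff.1 (hc (MonoidHom.mem_ker.2 h1))
  have h5 : v * s * v⁻¹ = ζ * s := by rw [hζ]; group
  have h6 : v * (ζ * s) * v⁻¹ = ζ * (ζ * s) := by
    calc v * (ζ * s) * v⁻¹ = (v * ζ) * s * v⁻¹ := by group
      _ = ζ * (v * s * v⁻¹) := by rw [h4]; group
      _ = _ := by rw [h5]
  have h7 : v * (ζ * (ζ * s)) * v⁻¹ = ζ * (ζ * (ζ * s)) := by
    calc v * (ζ * (ζ * s)) * v⁻¹ = (v * ζ) * (ζ * s) * v⁻¹ := by group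
      _ = ζ * (v * (ζ * s) * v⁻¹) := by rw [h4]; group
      _ = _ := by rw [h6]
  calc v ^ 3 * s * (v ^ 3)⁻¹ = v * (v * (v * s * v⁻¹) * v⁻¹) * v⁻¹ := by
        simp only [pow_succ, pow_zero, one_mul, mul_assoc, mul_inv_rev]
    _ = ζ * (ζ * (ζ * s)) := by rw [h5, h6, h7]
    _ = ζ ^ 3 * s := by simp only [pow_succ, pow_zero, one_mul, mul_assoc]
    _ = s := by rw [h2, one_mul]

theorem cube_inv {v a : E} (h : v * a * v⁻¹ = a⁻¹) : v ^ 3 * a * (v ^ 3)⁻¹ = a⁻¹ := by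
  have h1 : v * a⁻¹ * v⁻¹ = a := by
    calc v * a⁻¹ * v⁻¹ = (v * a * v⁻¹)⁻¹ := by group
      _ = a := by rw [h, inv_inv]
  calc v ^ 3 * a * (v ^ 3)⁻¹ = v * (v * (v * a * v⁻¹) * v⁻¹) * v⁻¹ := by
        simp only [pow_succ, pow_zero, one_mul, mul_assoc, mul_inv_rev]
    _ = a⁻¹ := by rw [h, h1, h]

end Hom

section RGDs

variable {I W Y E : Type*} [Fintype I] [DecidableEq I] [Group W] [Finite W] [Group Y] [Group E] [Finite E]
  {M : CoxeterMatrix I} {cs : CoxeterSystem M W} {A : I → I → ℤ} {h : IsCartan M A} {p : ℕ} [Fact p.Prime]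
  {T : Subgroup Y} {n : I → Y} {X : (I → ℤ) → Subgroup Y} {θ : E →* Y}

theorem pg_lft_pow {P : Subgroup Y} (hc : θ.ker ≤ Subgroup.center E) (hP : IsPGroup p P) {x : E}
    (h1 : θ x ∈ P) (h2 : ∃ k : ℕ, x ^ p ^ k = 1) : x ∈ lft p θ P := (mem_lft hc hP).2 ⟨h1, h2⟩

theorem sup_lft (hs : Function.Surjective θ) (hc : θ.ker ≤ Subgroup.center E) (hker : (Nat.card θ.ker).Coprime p)
    {S : Set (I → ℤ)} (hP : IsPGroup p ↥(RGD.Sup X S)) :
    RGD.Sup (fun x => lft p θ (X x)) S = lft p θ (RGD.Sup X S) := by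
  unfold RGD.Sup at hP ⊢
  exact (lft_iSup hc hker hs _ hP).symm

theorem nf_lft (hc : θ.ker ≤ Subgroup.center E) (hker : (Nat.card θ.ker).Coprime p) {V : Subgroup Y}
    (hV : IsPGroup p V) {c : E} (hn : NF V (θ c)) : NF (lft p θ V) c := by
  intro x hx e
  refine eq_one_of_mem_lft hc hker hV hx (hn _ ((mem_lft hc hV).1 hx).1 ?_)
  rw [← map_mul, ← map_inv, ← map_mul, e]

theorem map_Sup (hs : Function.Surjective θ) (hc : θ.ker ≤ Subgroup.center E) (hker : (Nat.card θ.ker).Coprime p)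
    {S : Set (I → ℤ)} (hP : ∀ x ∈ S, IsPGroup p ↥(X x)) :
    (RGD.Sup (fun x => lft p θ (X x)) S).map θ = RGD.Sup X S := by
  unfold RGD.Sup
  rw [Subgroup.map_iSup]
  exact iSup_congr fun x => map_lft hc hker hs (hP x.1 x.2)

theorem lj_lft (R : RGD cs h p T n X) (hs : Function.Surjective θ) (hc : θ.ker ≤ Subgroup.center E)
    (hker : (Nat.card θ.ker).Coprime p) {J : Set I} {x : E} (hx : θ x ∈ LJ cs h T X J) :
    x ∈ LJ cs h (T.comap θ) (fun x => lft p θ (X x)) J := by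
  have h1 : (LJ cs h (T.comap θ) (fun x => lft p θ (X x)) J).map θ = LJ cs h T X J := by
    unfold LJ
    rw [Subgroup.map_sup, Subgroup.map_comap_eq_self_of_surjective hs,
      map_Sup hs hc hker fun x hx => R.pgrp' hx.1]
  rw [← h1] at hx
  obtain ⟨y, hy, e⟩ := hx
  have h2 : y⁻¹ * x ∈ T.comap θ := by
    rw [Subgroup.mem_comap, map_mul, map_inv, e, inv_mul_cancel]
    exact one_mem _
  have h3 := mul_mem hy (T_le_LJ (cs := cs) (h := h) (X := fun x => lft p θ (X x)) (J := J) h2)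
  rwa [mul_inv_cancel_left] at h3

theorem isPGroup_VJ (R : RGD cs h p T n X) (J : Set I) : IsPGroup p ↥(VJ cs h X J) :=
  R.isPGroup_Upos.to_le (RGD.Sup_mono fun _ hx => ⟨hx.1, hx.2.1⟩)

theorem isPGroup_VNJ (R : RGD cs h p T n X) (J : Set I) : IsPGroup p ↥(VNJ cs h X J) :=
  (Cfsg.Agent.KFacts.RgdAut.isPGroup_UN R).to_le (RGD.Sup_mono fun x hx =>
    ⟨by have := hx.1.neg; rwa [neg_neg] at this, by have := hx.2.1; exact neg_nonneg.1 this⟩)

theorem isPGroup_UJ (R : RGD cs h p T n X) (J : Set I) : IsPGroup p ↥(UJ cs h X J) :=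
  R.isPGroup_Upos.to_le (RGD.Sup_mono fun _ hx => ⟨hx.1, hx.2.1⟩)

theorem isPGroup_UNJ (R : RGD cs h p T n X) (J : Set I) : IsPGroup p ↥(UNJ cs h X J) :=
  (Cfsg.Agent.KFacts.RgdAut.isPGroup_UN R).to_le (RGD.Sup_mono fun x hx =>
    ⟨by have := hx.1.neg; rwa [neg_neg] at this, by have := hx.2.1; exact neg_nonneg.1 this⟩)

theorem lp_lft (R : RGD cs h p T n X) (hs : Function.Surjective θ) (hc : θ.ker ≤ Subgroup.center E)
    (hker : (Nat.card θ.ker).Coprime p) {J : Set I} {c₁ c₂ : E} (hL : LP cs h T X J (θ c₁) (θ c₂)) :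
    LP cs h (T.comap θ) (fun x => lft p θ (X x)) J c₁ c₂ where
  mem₁ := lj_lft R hs hc hker hL.mem₁
  mem₂ := lj_lft R hs hc hker hL.mem₂
  fix₁ := by
    have h1 := isPGroup_VNJ R J
    have h2 := nf_lft hc hker h1 hL.fix₁
    unfold VNJ at h1 h2 ⊢
    rwa [sup_lft hs hc hker h1]
  fix₂ := by
    have h1 := isPGroup_VJ R J
    have h2 := nf_lft hc hker h1 hL.fix₂
    unfold VJ at h1 h2 ⊢
    rwa [sup_lft hs hc hker h1]

/-- elements of the lifted group as images -/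
theorem mem_map_lft {S : Type*} [Group S] (hc : θ.ker ≤ Subgroup.center E)
    (hker : (Nat.card θ.ker).Coprime p) {P : Subgroup Y} (hP : IsPGroup p P) {Q : Subgroup S} (hQ : IsPGroup p Q)
    {φ : S →* E} (hQP : P ≤ Q.map (θ.comp φ)) {v : E} (hv : v ∈ lft p θ P) : v ∈ Q.map φ := by
  have h1 := ((mem_lft hc hP).1 hv).1
  obtain ⟨q, hq, e⟩ := hQP h1
  have e' : θ (φ q) = θ v := e
  obtain ⟨k, hk⟩ := hQ ⟨q, hq⟩
  have hk' : q ^ p ^ k = 1 := by simpa using congrArg Subtype.val hk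
  have h2 : φ q ∈ lft p θ P := (mem_lft hc hP).2 ⟨by rw [e']; exact h1, k, by rw [← map_pow, hk', map_one]⟩
  have h3 := eq_one_of_mem_lft hc hker hP (mul_mem (inv_mem h2) hv) (by rw [map_mul, map_inv, e', inv_mul_cancel])
  exact ⟨q, hq, inv_mul_eq_one.1 h3⟩

variable {F : I → Type*} [∀ i, Field (F i)] [∀ i, Finite (F i)]
  {s : ∀ i, Matrix.SpecialLinearGroup (Fin 2) (F i) →* Y}

/-- **The frame.** -/
theorem frame [Nonempty I] [IsSimpleGroup Y] (R : RGD cs h p T n X) (hG : G1 cs h X = ⊤) (C : Coord X F s)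
    (hs : Function.Surjective θ) (hc : θ.ker ≤ Subgroup.center E) (hker : (Nat.card θ.ker).Coprime p)
    (hE : commutator E = ⊤) {s' : ∀ i, Matrix.SpecialLinearGroup (Fin 2) (F i) →* E}
    (hs' : ∀ i, θ.comp (s' i) = s i)
    (hconn : ∀ J : Set I, J.Nonempty → J ≠ Set.univ → ∃ a ∈ J, ∃ b, b ∉ J ∧ M a b ≠ 2) {J : Set I}
    (hb : ∀ v ∈ lft p θ (UNJ cs h X J), ∀ u ∈ lft p θ (UJ cs h X J), ∃ c₁ c₂, v * u = c₁ * c₂ ∧
      LP cs h T X J (θ c₁) (θ c₂) ∧ ∃ y, c₂ = y * c₁⁻¹ * y⁻¹) {g : E} (hg : θ g ≠ 1) :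
    ∃ a b : E, g = a * b * a⁻¹ * b⁻¹ := by
  have hn : ∃ n' : I → E, ∀ i, θ (n' i) = n i := by
    choose n' hn' using fun i => hs (n i)
    exact ⟨n', hn'⟩
  obtain ⟨n', hn⟩ := hn
  have R' := rgd_lift hc hker hs R hn
  have C' : Coord (fun x => lft p θ (X x)) F s' := coord_lift R C hc hker hs'
  have hG' := G1_lift R hG hs hc hker hE
  refine comm R' hG' C' hconn (J := J) (fun v hv u hu => ?_) (fun hcore => hg ?_)
  · have h1 := isPGroup_UNJ R J
    have h2 := isPGroup_UJ R J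
    have h3 : v ∈ lft p θ (UNJ cs h X J) := by
      unfold UNJ at h1 hv ⊢
      rwa [sup_lft hs hc hker h1] at hv
    have h4 : u ∈ lft p θ (UJ cs h X J) := by
      unfold UJ at h2 hu ⊢
      rwa [sup_lft hs hc hker h2] at hu
    obtain ⟨c₁, c₂, e, hL, hy⟩ := hb v h3 u h4
    exact ⟨c₁, c₂, e, lp_lft R hs hc hker hL, hy⟩
  · exact Cfsg.Agent.H162.GaussMain.core_le_ker R' θ hs hc hcore

end RGDs

end Cfsg.Agent.H92.QS
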